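import Cfsg.Agent.H198.IF.Step

/-!
# S5719, orthogonal groups, `q` odd: the `SL₂` of a nondegenerate three space of Witt index one (helper520)

`Tri Q a e f` : a hyperbolic pair `e, f` and a nonsingular vector `a` orthogonal to it;
`Tri.sig` : the homomorphism `SL₂(F) → E Q` (kernel `±1`) acting on `⟨a, e, f⟩`;
`Tri.sig_neg` : an element of square `-1` goes to an involution with `-1`-space of dimension two.
-/

set_option autoImplicit false
set_option linter.unusedSectionVars false
set_option linter.unusedSimpArgs false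

namespace Cfsg.Agent.H520.IF

open QuadraticMap Matrix Module
open Cfsg.Agent.LieClassical.OrthCore Cfsg.Agent.LieClassical.OrthTrans Cfsg.Agent.LieClassical.OrthSimple
open Cfsg.Agent.LieClassical.SLTwoUnipotent (u l coe_u coe_l eq_top_of_u_mem_of_l_mem)
open Cfsg.Agent.H989.Gs.Gen
open Cfsg.Agent.H198.IF (Neg Fix neg₂ mem_Neg)

variable {F V : Type*} [Field F] [AddCommGroup V] [Module F V] {Q : QuadraticForm F V}

/-- a hyperbolic pair and a nonsingular vector orthogonal to it -/
structure Tri (Q : QuadraticForm F V) (a e f : V) : Prop where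
  hyp : Hyp Q e f
  ae : polar Q a e = 0
  af : polar Q a f = 0
  ne : Q a ≠ 0

namespace Tri

variable {a e f : V} (h : Tri Q a e f)

/-- the coefficient of `e` -/
def ce (Q : QuadraticForm F V) (a e f : V) (M : SpecialLinearGroup (Fin 2) F) (v : V) : F :=
  (M.1 0 0 ^ 2 - 1) * polar Q f v - Q a * M.1 0 1 ^ 2 * polar Q e v - M.1 0 0 * M.1 0 1 * polar Q a v

/-- the coefficient of `a` -/
def ca (Q : QuadraticForm F V) (a e f : V) (M : SpecialLinearGroup (Fin 2) F) (v : V) : F :=
  -(M.1 0 0 * M.1 1 0 / Q a) * polar Q f v + M.1 0 1 * M.1 1 1 * polar Q e v + (M.1 0 1 * M.1 1 0 / Q a) * polar Q a v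

/-- the coefficient of `f` -/
def cf (Q : QuadraticForm F V) (a e f : V) (M : SpecialLinearGroup (Fin 2) F) (v : V) : F :=
  -(M.1 1 0 ^ 2 / Q a) * polar Q f v + (M.1 1 1 ^ 2 - 1) * polar Q e v + (M.1 1 0 * M.1 1 1 / Q a) * polar Q a v

/-- the action of `M` -/
def phi (_ : Tri Q a e f) (M : SpecialLinearGroup (Fin 2) F) (v : V) : V :=
  v + ce Q a e f M v • e + ca Q a e f M v • a + cf Q a e f M v • f

include h in
theorem pols : polar Q e e = 0 ∧ polar Q f f = 0 ∧ polar Q a a = 2 * Q a ∧ polar Q e f = 1 ∧ polar Q f e = 1 ∧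
    polar Q a e = 0 ∧ polar Q e a = 0 ∧ polar Q a f = 0 ∧ polar Q f a = 0 :=
  ⟨h.hyp.polar_left, h.hyp.polar_right, by rw [QuadraticMap.polar_self, two_smul, two_mul], h.hyp.pair, h.hyp.pair', h.ae,
    polar_zero_of_comm h.ae, h.af, polar_zero_of_comm h.af⟩

theorem polar_e (M : SpecialLinearGroup (Fin 2) F) (v : V) :
    polar Q e (h.phi M v) = polar Q e v + cf Q a e f M v := by
  obtain ⟨p1, p2, p3, p4, p5, p6, p7, p8, p9⟩ := h.pols
  unfold phi
  simp only [polar_add_right, polar_smul_right, smul_eq_mul, p1, p2, p3, p4, p5, p6, p7, p8, p9]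
  ring

theorem polar_f (M : SpecialLinearGroup (Fin 2) F) (v : V) :
    polar Q f (h.phi M v) = polar Q f v + ce Q a e f M v := by
  obtain ⟨p1, p2, p3, p4, p5, p6, p7, p8, p9⟩ := h.pols
  unfold phi
  simp only [polar_add_right, polar_smul_right, smul_eq_mul, p1, p2, p3, p4, p5, p6, p7, p8, p9]
  ring

theorem polar_a (M : SpecialLinearGroup (Fin 2) F) (v : V) :
    polar Q a (h.phi M v) = polar Q a v + 2 * Q a * ca Q a e f M v := by
  obtain ⟨p1, p2, p3, p4, p5, p6, p7, p8, p9⟩ := h.pols
  unfold phi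
  simp only [polar_add_right, polar_smul_right, smul_eq_mul, p1, p2, p3, p4, p5, p6, p7, p8, p9]
  ring

theorem det_eq (M : SpecialLinearGroup (Fin 2) F) : M.1 0 0 * M.1 1 1 - M.1 0 1 * M.1 1 0 = 1 := by
  have := M.2
  rwa [Matrix.det_fin_two] at this

theorem phi_mul (M N : SpecialLinearGroup (Fin 2) F) (v : V) :
    h.phi (M * N) v = h.phi M (h.phi N v) := by
  have h00 : (M * N).1 0 0 = M.1 0 0 * N.1 0 0 + M.1 0 1 * N.1 1 0 := by
    simp [Matrix.mul_apply, Fin.sum_univ_two]
  have h01 : (M * N).1 0 1 = M.1 0 0 * N.1 0 1 + M.1 0 1 * N.1 1 1 := by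
    simp [Matrix.mul_apply, Fin.sum_univ_two]
  have h10 : (M * N).1 1 0 = M.1 1 0 * N.1 0 0 + M.1 1 1 * N.1 1 0 := by
    simp [Matrix.mul_apply, Fin.sum_univ_two]
  have h11 : (M * N).1 1 1 = M.1 1 0 * N.1 0 1 + M.1 1 1 * N.1 1 1 := by
    simp [Matrix.mul_apply, Fin.sum_univ_two]
  have hne := h.ne
  have dM := det_eq M
  have dN := det_eq N
  have ke : ce Q a e f (M * N) v = ce Q a e f N v + ce Q a e f M (h.phi N v) := by
    conv_rhs => rw [ce, ce, polar_e, polar_f, polar_a, ce, ca, cf]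
    rw [ce, h00, h01]
    field_simp
    linear_combination (-(M.1 0 0 * M.1 0 1 * polar Q a v)) * dN
  have kf : cf Q a e f (M * N) v = cf Q a e f N v + cf Q a e f M (h.phi N v) := by
    conv_rhs => rw [cf, cf, polar_e, polar_f, polar_a, ce, ca, cf]
    rw [cf, h10, h11]
    field_simp
    linear_combination (M.1 1 0 * M.1 1 1 * polar Q a v) * dN
  have ka : ca Q a e f (M * N) v = ca Q a e f N v + ca Q a e f M (h.phi N v) := by
    conv_rhs => rw [ca, ca, polar_e, polar_f, polar_a, ce, ca, cf]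
    rw [ca, h00, h01, h10, h11]
    field_simp
    linear_combination (-(N.1 0 0 * N.1 1 0 * polar Q f v) + Q a * N.1 0 1 * N.1 1 1 * polar Q e v +
      N.1 1 0 * N.1 0 1 * polar Q a v) * dM + (M.1 0 1 * M.1 1 0 * polar Q a v) * dN
  conv_rhs => rw [phi]
  rw [phi, ke, kf, ka, phi]
  module

theorem phi_one (v : V) : h.phi 1 v = v := by
  have h00 : (1 : SpecialLinearGroup (Fin 2) F).1 0 0 = 1 := by simp
  have h01 : (1 : SpecialLinearGroup (Fin 2) F).1 0 1 = 0 := by simp
  have h10 : (1 : SpecialLinearGroup (Fin 2) F).1 1 0 = 0 := by simp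
  have h11 : (1 : SpecialLinearGroup (Fin 2) F).1 1 1 = 1 := by simp
  unfold phi ce ca cf
  rw [h00, h01, h10, h11]
  simp

/-- the linear map -/
def phiLin (M : SpecialLinearGroup (Fin 2) F) : V →ₗ[F] V where
  toFun := h.phi M
  map_add' v w := by
    unfold phi ce ca cf
    simp only [polar_add_right]
    module
  map_smul' c v := by
    unfold phi ce ca cf
    simp only [polar_smul_right, smul_eq_mul, RingHom.id_apply]
    module

/-- the homomorphism `SL(2,F) → GL(V)` -/
def rho : SpecialLinearGroup (Fin 2) F →* (V ≃ₗ[F] V) :=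
  (LinearMap.GeneralLinearGroup.generalLinearEquiv F V).toMonoidHom.comp
    (MonoidHom.toHomUnits
      { toFun := h.phiLin
        map_one' := LinearMap.ext fun v => h.phi_one v
        map_mul' := fun M N => LinearMap.ext fun v => h.phi_mul M N v })

theorem rho_apply (M : SpecialLinearGroup (Fin 2) F) (v : V) : h.rho M v = h.phi M v := rfl

theorem rho_u (t : F) : h.rho (u t) = (S Q e (t • a) : V ≃ₗ[F] V) := by
  ext v
  have h1 : polar Q e (t • a) = 0 := by rw [polar_smul_right, polar_zero_of_comm h.ae, smul_zero]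
  have h2 := S_ap h.hyp.left h1 v
  refine Eq.trans ?_ h2.symm
  rw [rho_apply]
  unfold phi ce ca cf
  have h00 : (u t : SpecialLinearGroup (Fin 2) F).1 0 0 = 1 := by simp [u]
  have h01 : (u t : SpecialLinearGroup (Fin 2) F).1 0 1 = t := by simp [u]
  have h10 : (u t : SpecialLinearGroup (Fin 2) F).1 1 0 = 0 := by simp [u]
  have h11 : (u t : SpecialLinearGroup (Fin 2) F).1 1 1 = 1 := by simp [u]
  rw [h00, h01, h10, h11, QuadraticMap.map_smul]
  simp only [polar_smul_left, smul_eq_mul]
  module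

theorem rho_l (t : F) : h.rho (l t) = (S Q f (-(t / Q a) • a) : V ≃ₗ[F] V) := by
  ext v
  have h1 : polar Q f (-(t / Q a) • a) = 0 := by rw [polar_smul_right, polar_zero_of_comm h.af, smul_zero]
  have h2 := S_ap h.hyp.right h1 v
  refine Eq.trans ?_ h2.symm
  rw [rho_apply]
  unfold phi ce ca cf
  have h00 : (l t : SpecialLinearGroup (Fin 2) F).1 0 0 = 1 := by simp [l]
  have h01 : (l t : SpecialLinearGroup (Fin 2) F).1 0 1 = 0 := by simp [l]
  have h10 : (l t : SpecialLinearGroup (Fin 2) F).1 1 0 = t := by simp [l]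
  have h11 : (l t : SpecialLinearGroup (Fin 2) F).1 1 1 = 1 := by simp [l]
  have hne := h.ne
  rw [h00, h01, h10, h11, QuadraticMap.map_smul]
  simp only [polar_smul_left, smul_eq_mul]
  match_scalars <;> field_simp <;> ring

theorem rho_mem (M : SpecialLinearGroup (Fin 2) F) : h.rho M ∈ E Q := by
  have h1 : (E Q).comap h.rho = ⊤ := by
    apply eq_top_of_u_mem_of_l_mem
    · intro t
      rw [Subgroup.mem_comap, rho_u]
      exact Subtype.property _
    · intro t
      rw [Subgroup.mem_comap, rho_l]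
      exact Subtype.property _
  exact Subgroup.mem_comap.1 (h1 ▸ Subgroup.mem_top M)

/-- `SL(2,F) → E Q` -/
def sig : SpecialLinearGroup (Fin 2) F →* ↥(E Q) := h.rho.codRestrict (E Q) h.rho_mem

theorem sig_u (t : F) : h.sig (u t) = S Q e (t • a) := Subtype.ext (h.rho_u t)

theorem sig_l (t : F) : h.sig (l t) = S Q f (-(t / Q a) • a) := Subtype.ext (h.rho_l t)

theorem sig_phi (M : SpecialLinearGroup (Fin 2) F) (v : V) : ap (h.sig M) v = h.phi M v := rfl

theorem sig_apply (M : SpecialLinearGroup (Fin 2) F) (v : V) : ap (h.sig M) v = v +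
    ((M.1 0 0 ^ 2 - 1) * polar Q f v - Q a * M.1 0 1 ^ 2 * polar Q e v - M.1 0 0 * M.1 0 1 * polar Q a v) • e +
    (-(M.1 0 0 * M.1 1 0 / Q a) * polar Q f v + M.1 0 1 * M.1 1 1 * polar Q e v +
      (M.1 0 1 * M.1 1 0 / Q a) * polar Q a v) • a +
    (-(M.1 1 0 ^ 2 / Q a) * polar Q f v + (M.1 1 1 ^ 2 - 1) * polar Q e v +
      (M.1 1 0 * M.1 1 1 / Q a) * polar Q a v) • f := rfl

theorem sig_perp {v : V} (h1 : polar Q a v = 0) (h2 : polar Q e v = 0) (h3 : polar Q f v = 0)
    (M : SpecialLinearGroup (Fin 2) F) : ap (h.sig M) v = v := by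
  rw [sig_apply, h1, h2, h3]
  simp

theorem sig_neg₂ : h.sig (neg₂ F) = 1 := by
  have a00 : (neg₂ F).1 0 0 = -1 := by simp [neg₂]
  have a01 : (neg₂ F).1 0 1 = 0 := by simp [neg₂]
  have a10 : (neg₂ F).1 1 0 = 0 := by simp [neg₂]
  have a11 : (neg₂ F).1 1 1 = -1 := by simp [neg₂]
  apply ext_ap
  intro v
  rw [sig_apply, a00, a01, a10, a11, ap_one]
  simp

theorem sig_eq_one {M : SpecialLinearGroup (Fin 2) F} : h.sig M = 1 ↔ M = 1 ∨ M = neg₂ F := by
  constructor
  · intro h1
    have k1 : polar Q e (h.phi M e) = polar Q e e := by rw [← sig_phi, h1, ap_one]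
    have k2 : polar Q f (h.phi M e) = polar Q f e := by rw [← sig_phi, h1, ap_one]
    have k3 : polar Q f (h.phi M f) = polar Q f f := by rw [← sig_phi, h1, ap_one]
    obtain ⟨p1, p2, p3, p4, p5, p6, p7, p8, p9⟩ := h.pols
    have hne := h.ne
    rw [polar_e, cf, p1, p5, p6] at k1
    rw [polar_f, ce, p1, p5, p6] at k2
    rw [polar_f, ce, p2, p4, p8] at k3
    have m10 : M.1 1 0 = 0 := by
      have : M.1 1 0 ^ 2 / Q a = 0 := by linear_combination -k1
      rcases div_eq_zero_iff.1 this with h2 | h2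
      · exact pow_eq_zero_iff two_ne_zero |>.1 h2
      · exact absurd h2 hne
    have m01 : M.1 0 1 = 0 := by
      have : Q a * M.1 0 1 ^ 2 = 0 := by linear_combination -k3
      rcases mul_eq_zero.1 this with h2 | h2
      · exact absurd h2 hne
      · exact pow_eq_zero_iff two_ne_zero |>.1 h2
    have m00 : M.1 0 0 ^ 2 = 1 := by linear_combination k2
    have dM := det_eq M
    rw [m01, m10, mul_zero, sub_zero] at dM
    have hext : ∀ r : F, M.1 0 0 = r → M.1 1 1 = r → M.1 = !![r, 0; 0, r] := by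
      intro r h3 h4
      ext i j
      fin_cases i <;> fin_cases j
      · exact h3
      · exact m01
      · exact m10
      · exact h4
    rcases mul_self_eq_one_iff.1 ((pow_two _).symm.trans m00) with h2 | h2
    · left
      rw [h2, one_mul] at dM
      apply Subtype.ext
      rw [hext 1 h2 dM, Matrix.SpecialLinearGroup.coe_one, Matrix.one_fin_two]
    · right
      rw [h2, neg_one_mul] at dM
      apply Subtype.ext
      rw [hext (-1) h2 (neg_eq_iff_eq_neg.1 dM)]
      change _ = -(1 : Matrix (Fin 2) (Fin 2) F)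
      rw [Matrix.one_fin_two]
      simp
  · rintro (rfl | rfl)
    · exact map_one _
    · exact h.sig_neg₂

/-- the `-1` space of the image of an element of square `-1` -/
theorem sig_sq {c : SpecialLinearGroup (Fin 2) F} (hc : c * c = neg₂ F) : h.sig c * h.sig c = 1 := by
  rw [← map_mul, hc, sig_neg₂]

theorem tr_zero {c : SpecialLinearGroup (Fin 2) F} (hc : c * c = neg₂ F) : c.1 1 1 = -c.1 0 0 := by
  have k00 : c.1 0 0 * c.1 0 0 + c.1 0 1 * c.1 1 0 = -1 := by
    have : (c * c).1 0 0 = (neg₂ F).1 0 0 := by rw [hc]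
    simpa [Matrix.mul_apply, Fin.sum_univ_two, neg₂] using this
  have k01 : c.1 0 0 * c.1 0 1 + c.1 0 1 * c.1 1 1 = 0 := by
    have : (c * c).1 0 1 = (neg₂ F).1 0 1 := by rw [hc]
    simpa [Matrix.mul_apply, Fin.sum_univ_two, neg₂] using this
  have k11 : c.1 1 0 * c.1 0 1 + c.1 1 1 * c.1 1 1 = -1 := by
    have : (c * c).1 1 1 = (neg₂ F).1 1 1 := by rw [hc]
    simpa [Matrix.mul_apply, Fin.sum_univ_two, neg₂] using this
  have dc := det_eq c
  by_contra hne
  have hs : c.1 0 0 + c.1 1 1 ≠ 0 := fun h0 => hne (by linear_combination h0)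
  have m01 : c.1 0 1 = 0 := by
    have : c.1 0 1 * (c.1 0 0 + c.1 1 1) = 0 := by linear_combination k01
    exact (mul_eq_zero.1 this).resolve_right hs
  rw [m01] at k00 k11 dc
  have : (c.1 0 0 + c.1 1 1) * (c.1 0 0 + c.1 1 1) = 0 := by linear_combination k00 + k11 + 2 * dc
  exact hs (mul_self_eq_zero.1 this)

/-- the fixed vector of the image of an element of square `-1` -/
def fv (Q : QuadraticForm F V) (a e f : V) (c : SpecialLinearGroup (Fin 2) F) : V :=
  c.1 0 1 • e + (c.1 0 0 / Q a) • a + (c.1 1 0 / Q a) • f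

/-- the orthogonal projection onto `⟨a, e, f⟩`, twice -/
def pr2 (Q : QuadraticForm F V) (a e f : V) (v : V) : V :=
  (2 * polar Q f v) • e + (polar Q a v / Q a) • a + (2 * polar Q e v) • f

theorem sig_inv_apply {c : SpecialLinearGroup (Fin 2) F} (hc : c * c = neg₂ F) (v : V) :
    ap (h.sig c) v = v - (Q a * polar Q (fv Q a e f c) v) • fv Q a e f c - pr2 Q a e f v := by
  have ht := tr_zero hc
  have dc := det_eq c
  rw [ht] at dc
  have hne := h.ne
  rw [sig_apply, ht]
  unfold fv pr2
  simp only [polar_add_left, polar_smul_left, smul_eq_mul]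
  match_scalars
  · ring
  · field_simp
    linear_combination (-polar Q f v) * dc
  · field_simp
    linear_combination (-polar Q a v) * dc
  · field_simp
    linear_combination (-Q a * polar Q e v) * dc

include h in
theorem polar_fv_pr2 {c : SpecialLinearGroup (Fin 2) F} (v : V) :
    polar Q (fv Q a e f c) (pr2 Q a e f v) = 2 * polar Q (fv Q a e f c) v := by
  obtain ⟨p1, p2, p3, p4, p5, p6, p7, p8, p9⟩ := h.pols
  have hne := h.ne
  unfold fv pr2
  simp only [polar_add_left, polar_smul_left, polar_add_right, polar_smul_right, smul_eq_mul, p1, p2, p3, p4, p5, p6,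
    p7, p8, p9]
  field_simp
  ring

include h in
theorem polar_fv_self {c : SpecialLinearGroup (Fin 2) F} (hc : c * c = neg₂ F) :
    Q a * polar Q (fv Q a e f c) (fv Q a e f c) = -2 := by
  obtain ⟨p1, p2, p3, p4, p5, p6, p7, p8, p9⟩ := h.pols
  have ht := tr_zero hc
  have dc := det_eq c
  rw [ht] at dc
  have hne := h.ne
  unfold fv
  simp only [polar_add_left, polar_smul_left, polar_add_right, polar_smul_right, smul_eq_mul, p1, p2, p3, p4, p5, p6,
    p7, p8, p9]
  field_simp
  linear_combination (-2 * Q a) * dc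

include h in
theorem indep (h2 : (2 : F) ≠ 0) : LinearIndependent F ![e, a, f] := by
  obtain ⟨p1, p2, p3, p4, p5, p6, p7, p8, p9⟩ := h.pols
  rw [Fintype.linearIndependent_iff]
  intro g hg
  rw [Fin.sum_univ_three] at hg
  change g 0 • e + g 1 • a + g 2 • f = 0 at hg
  have k1 : polar Q f (g 0 • e + g 1 • a + g 2 • f) = 0 := by rw [hg, polar_zero_right]
  have k2 : polar Q a (g 0 • e + g 1 • a + g 2 • f) = 0 := by rw [hg, polar_zero_right]
  have k3 : polar Q e (g 0 • e + g 1 • a + g 2 • f) = 0 := by rw [hg, polar_zero_right]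
  simp only [polar_add_right, polar_smul_right, smul_eq_mul, p1, p2, p3, p4, p5, p6, p7, p8, p9, mul_zero, mul_one,
    add_zero, zero_add] at k1 k2 k3
  intro i
  fin_cases i
  · exact k1
  · exact (mul_eq_zero.1 k2).resolve_right (mul_ne_zero h2 h.ne)
  · exact k3

theorem mem_neg_iff (h2 : (2 : F) ≠ 0) {c : SpecialLinearGroup (Fin 2) F} (hc : c * c = neg₂ F) (v : V) :
    v ∈ Neg (h.sig c) ↔ v ∈ Submodule.span F (Set.range ![e, a, f]) ∧ polar Q (fv Q a e f c) v = 0 := by
  obtain ⟨p1, p2, p3, p4, p5, p6, p7, p8, p9⟩ := h.pols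
  have hne := h.ne
  constructor
  · intro hv
    rw [mem_Neg, h.sig_inv_apply hc] at hv
    have h3 : (2 : F) • v = (Q a * polar Q (fv Q a e f c) v) • fv Q a e f c + pr2 Q a e f v := by
      linear_combination (norm := module) hv
    have h4 : polar Q (fv Q a e f c) v = 0 := by
      have h5 := congrArg (polar Q (fv Q a e f c)) h3
      rw [polar_smul_right, polar_add_right, polar_smul_right, h.polar_fv_pr2, smul_eq_mul, smul_eq_mul] at h5
      have h6 := h.polar_fv_self hc
      have h7 : 2 * polar Q (fv Q a e f c) v = 0 := by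
        linear_combination h5 + polar Q (fv Q a e f c) v * h6
      exact (mul_eq_zero.1 h7).resolve_left h2
    refine ⟨?_, h4⟩
    rw [h4, mul_zero, zero_smul, zero_add] at h3
    have h5 : v = (2 : F)⁻¹ • pr2 Q a e f v := by rw [← h3, smul_smul, inv_mul_cancel₀ h2, one_smul]
    rw [h5]
    apply Submodule.smul_mem
    unfold pr2
    have me : e ∈ Submodule.span F (Set.range ![e, a, f]) := Submodule.subset_span ⟨0, rfl⟩
    have ma : a ∈ Submodule.span F (Set.range ![e, a, f]) := Submodule.subset_span ⟨1, rfl⟩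
    have mf : f ∈ Submodule.span F (Set.range ![e, a, f]) := Submodule.subset_span ⟨2, rfl⟩
    exact Submodule.add_mem _ (Submodule.add_mem _ (Submodule.smul_mem _ _ me) (Submodule.smul_mem _ _ ma))
      (Submodule.smul_mem _ _ mf)
  · rintro ⟨hv, h3⟩
    rw [Submodule.mem_span_range_iff_exists_fun] at hv
    obtain ⟨g, hg⟩ := hv
    rw [Fin.sum_univ_three] at hg
    change g 0 • e + g 1 • a + g 2 • f = v at hg
    rw [mem_Neg, h.sig_inv_apply hc, h3, mul_zero, zero_smul, sub_zero]
    have h4 : pr2 Q a e f v = (2 : F) • v := by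
      rw [← hg]
      unfold pr2
      simp only [polar_add_right, polar_smul_right, smul_eq_mul, p1, p2, p3, p4, p5, p6, p7, p8, p9]
      match_scalars <;> field_simp <;> ring
    rw [h4, two_smul]
    abel

/-- **the `-1` space of the image of an element of square `-1`** -/
theorem finrank_neg (h2 : (2 : F) ≠ 0) {c : SpecialLinearGroup (Fin 2) F} (hc : c * c = neg₂ F) :
    finrank F (Neg (h.sig c)) = 2 := by
  classical
  set U := Submodule.span F (Set.range ![e, a, f]) with hU
  have hfin : FiniteDimensional F U := FiniteDimensional.span_of_finite F (Set.finite_range _)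
  have hU3 : finrank F U = 3 := by
    rw [hU, finrank_span_eq_card (h.indep h2), Fintype.card_fin]
  have hfv : fv Q a e f c ∈ U := by
    have me : e ∈ U := Submodule.subset_span ⟨0, rfl⟩
    have ma : a ∈ U := Submodule.subset_span ⟨1, rfl⟩
    have mf : f ∈ U := Submodule.subset_span ⟨2, rfl⟩
    exact Submodule.add_mem _ (Submodule.add_mem _ (Submodule.smul_mem _ _ me) (Submodule.smul_mem _ _ ma))
      (Submodule.smul_mem _ _ mf)
  set T : Module.Dual F U := (QuadraticMap.polarBilin Q (fv Q a e f c)).comp U.subtype with hT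
  have hTa : ∀ v : U, T v = polar Q (fv Q a e f c) v := fun v => rfl
  have hT0 : T ≠ 0 := by
    intro h3
    have h4 : T ⟨fv Q a e f c, hfv⟩ = 0 := by rw [h3]; rfl
    rw [hTa] at h4
    have h5 := h.polar_fv_self hc
    rw [h4, mul_zero] at h5
    exact h2 (neg_eq_zero.1 h5.symm)
  have h3 : Neg (h.sig c) = (LinearMap.ker T).map U.subtype := by
    ext v
    rw [h.mem_neg_iff h2 hc, Submodule.mem_map]
    constructor
    · rintro ⟨h4, h5⟩
      exact ⟨⟨v, h4⟩, h5, rfl⟩
    · rintro ⟨w, h4, rfl⟩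
      exact ⟨w.2, h4⟩
  rw [h3, Submodule.finrank_map_subtype_eq]
  have h4 := Module.Dual.finrank_ker_add_one_of_ne_zero hT0
  rw [hU3] at h4
  omega

/-- both statements -/
theorem sig_neg (h2 : (2 : F) ≠ 0) {c : SpecialLinearGroup (Fin 2) F} (hc : c * c = neg₂ F) :
    h.sig c * h.sig c = 1 ∧ finrank F (Neg (h.sig c)) = 2 := ⟨h.sig_sq hc, h.finrank_neg h2 hc⟩

end Tri

end Cfsg.Agent.H520.IF
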